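import Mathlib
import Cfsg.Agent.Helper57.G2Data

/-!
# The Chevalley group `G₂(3)` as a permutation group on 728 points: definitions (seat helper57)

Tables are packed natural numbers with entries of ten bits (`g3Ent`); `g3Good H N` says that the
table `N` is the table of a permutation in the subgroup `H` of `Sym(728)`.  The other definitions
are Boolean checks on tables, evaluated by the kernel on natural number literals:
`g3WordsChk` (tables are words in other tables), `g3ForestChk` (a forest of generator steps
reaching all points from the roots), `g3Chk` (the cycle lengths of three base points under a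
product of three tables have a least common multiple in `{1, 2, 3, 4, 6, 7, 8, 9, 12, 13}`), and
`g3MvChk` (a matrix-vector product over `ZMod 3`, on base-3 digits).
-/

set_option autoImplicit false

namespace Cfsg.Agent.Helper57

open Cfsg.Lie

/-- The entry of a packed table. -/
def g3Ent (N x : ℕ) : ℕ := Nat.land (Nat.shiftRight N (Nat.mul 10 x)) 1023

/-- `N` is the table of an element of `H`. -/
def g3Good (H : Subgroup (Equiv.Perm (Fin 728))) (N : ℕ) : Prop :=
  ∃ σ ∈ H, ∀ x : Fin 728, (σ x).val = g3Ent N x.val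

/-- A bounded universal quantifier, as a Boolean. -/
def g3All : ℕ → (ℕ → Bool) → Bool
  | 0, _ => true
  | n + 1, f => f n && g3All n f

theorem g3All_spec (f : ℕ → Bool) : ∀ n : ℕ, g3All n f = true → ∀ x, x < n → f x = true := by
  intro n
  induction n with
  | zero => intro _ x hx; omega
  | succ n ih =>
    intro h x hx
    have h' : (f n && g3All n f) = true := h
    rw [Bool.and_eq_true] at h'
    rcases Nat.lt_succ_iff_lt_or_eq.1 hx with h1 | h1
    · exact ih h'.2 x h1
    · rw [h1]; exact h'.1

/-- The action of a word in the tables of the list `Gs` (the last letter acts first). -/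
def g3WordAct (Gs : List ℕ) : List ℕ → ℕ → ℕ
  | [], x => x
  | j :: w, x => g3Ent (Gs.getD j 0) (g3WordAct Gs w x)

/-- The table `N` is the word `w` in the tables of `Gs`. -/
def g3WordChk (Gs : List ℕ) (w : List ℕ) (N : ℕ) : Bool :=
  w.all (fun j => Nat.blt j Gs.length) &&
    g3All 728 (fun x => Nat.beq (g3Ent N x) (g3WordAct Gs w x))

/-- The tables of the first list are the words of the second list. -/
def g3WordsChk (Gs : List ℕ) : List ℕ → List (List ℕ) → Bool
  | [], [] => true
  | N :: Ns, w :: ws => g3WordChk Gs w N && g3WordsChk Gs Ns ws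
  | _, _ => false

/-- Membership in a list of numbers, as a Boolean. -/
def g3Mem : List ℕ → ℕ → Bool
  | [], _ => false
  | a :: l, x => Nat.beq a x || g3Mem l x

/-- Every point below 728 is a root, or the image of its parent, a point of smaller rank, under
the table of `Gs` with the number given by `ltN`. -/
def g3ForestChk (Gs : List ℕ) (roots : List ℕ) (parN ltN rkN : ℕ) : Bool :=
  g3All 728 (fun x => g3Mem roots x ||
    (Nat.blt (g3Ent rkN (g3Ent parN x)) (g3Ent rkN x) && Nat.blt (g3Ent parN x) 728 &&
      Nat.blt (g3Ent ltN x) Gs.length &&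
      Nat.beq (g3Ent (Gs.getD (g3Ent ltN x) 0) (g3Ent parN x)) x))

/-- Search for the return of the orbit of `p` under `f` to `p`, with fuel. -/
def g3CycLen (f : ℕ → ℕ) (p : ℕ) : ℕ → ℕ → ℕ → ℕ
  | 0, _, _ => 0
  | fuel + 1, q, j => bif Nat.beq q p then j else g3CycLen f p fuel (f q) (j + 1)

/-- The length of the cycle of `p` under `f` if it is at most `13`, and `0` otherwise. -/
def g3Cyc (f : ℕ → ℕ) (p : ℕ) : ℕ := g3CycLen f p 13 (f p) 1

/-- Membership in `{1, 2, 3, 4, 6, 7, 8, 9, 12, 13}`, by a bit mask. -/
def g3Ok (n : ℕ) : Bool := Nat.beq (Nat.land (Nat.shiftRight 13278 n) 1) 1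

/-- The product of the three tables. -/
def g3Comp (Nu N1 N2 : ℕ) (x : ℕ) : ℕ := g3Ent Nu (g3Ent N1 (g3Ent N2 x))

/-- The least common multiple of the cycle lengths of the points `0`, `b1`, `b2` under the
product of the three tables lies in `{1, 2, 3, 4, 6, 7, 8, 9, 12, 13}`. -/
def g3Chk (b1 b2 : ℕ) (Nu N1 N2 : ℕ) : Bool :=
  g3Ok (Nat.lcm (Nat.lcm (g3Cyc (g3Comp Nu N1 N2) 0) (g3Cyc (g3Comp Nu N1 N2) b1))
    (g3Cyc (g3Comp Nu N1 N2) b2))

/-- A base-3 digit. -/
def g3Dig (w k : ℕ) : ℕ := Nat.mod (Nat.div w (Nat.pow 3 k)) 3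

/-- The vector over `ZMod 3` with the given base-3 digits. -/
def g3Vec (w : ℕ) : chevG2.Idx → ZMod 3 := fun k => ((g3Dig w (g2Num k) : ℕ) : ZMod 3)

/-- The matrix over `ZMod 3` whose rows have the given base-3 digits. -/
def g3Mat (rows : List ℕ) : Matrix chevG2.Idx chevG2.Idx (ZMod 3) :=
  fun i j => ((g3Dig (rows.getD (g2Num i) 0) (g2Num j) : ℕ) : ZMod 3)

/-- The sum of the products of the first `k` base-3 digits. -/
def g3Dot (a w : ℕ) : ℕ → ℕ
  | 0 => 0
  | k + 1 => g3Dot a w k + g3Dig a k * g3Dig w k

/-- The matrix with the given rows maps the vector with digits `w` to the vector with digits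
`w'`. -/
def g3MvChk (rows : List ℕ) (w w' : ℕ) : Bool :=
  g3All 14 (fun i => Nat.beq (Nat.mod (g3Dot (rows.getD i 0) w 14) 3) (g3Dig w' i))

end Cfsg.Agent.Helper57
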