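import Mathlib
import Cfsg.Agent.Helper16.NGDefs

/-!
# CALL S4404 (helper16), piece KEYA (helper57): parity of the number of hyperplanes of `r³`
-/

set_option autoImplicit false

namespace Cfsg.Agent.Helper57.NGKEYA

open Cfsg.Agent.Helper16.NG

/-- Counting subgroups of order `r²` in an abelian group of exponent `r` and order `r³`. -/
theorem keya_count {G : Type*} [Group G] [Finite G] (hc : ∀ a b : G, a * b = b * a) (r : ℕ)
    [Fact r.Prime] (hexp : ∀ g : G, g ^ r = 1) (hcard : Nat.card G = r ^ 3) :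
    (∀ a : G, a ≠ 1 → Nat.card {B : Subgroup G // Nat.card B = r ^ 2 ∧ a ∈ B} = r + 1) ∧
    Nat.card {B : Subgroup G // Nat.card B = r ^ 2} = r ^ 2 + r + 1 := by
  classical
  let _ : CommGroup G := { ‹Group G› with mul_comm := hc }
  have : Fintype G := Fintype.ofFinite G
  have : Fintype (Subgroup G) := Fintype.ofFinite _
  have hr : r.Prime := Fact.out
  have hr2 : 2 ≤ r := hr.two_le
  have hzp : ∀ g : G, g ≠ 1 → Nat.card (Subgroup.zpowers g) = r := fun g hg => by
    rw [Nat.card_zpowers, orderOf_eq_prime (hexp g) hg]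
  have hsup : ∀ a b : G, a ≠ 1 → b ∉ Subgroup.zpowers a →
      Nat.card ↥(Subgroup.zpowers a ⊔ Subgroup.zpowers b) = r ^ 2 := by
    intro a b ha hb
    have hb1 : b ≠ 1 := fun h => hb (h ▸ one_mem _)
    have hle : Nat.card ↥(Subgroup.zpowers a ⊔ Subgroup.zpowers b) ≤ r * r := by
      have hsurj : Function.Surjective (fun p : Subgroup.zpowers a × Subgroup.zpowers b =>
          (⟨(p.1 : G) * (p.2 : G), Subgroup.mul_mem _ (Subgroup.mem_sup_left p.1.2)
            (Subgroup.mem_sup_right p.2.2)⟩ :
            ↥(Subgroup.zpowers a ⊔ Subgroup.zpowers b))) := by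
        rintro ⟨x, hx⟩
        obtain ⟨y, hy, z, hz, rfl⟩ := Subgroup.mem_sup.mp hx
        exact ⟨(⟨y, hy⟩, ⟨z, hz⟩), rfl⟩
      have h1 := Nat.card_le_card_of_surjective _ hsurj
      rwa [Nat.card_prod, hzp a ha, hzp b hb1] at h1
    have hlt : r < Nat.card ↥(Subgroup.zpowers a ⊔ Subgroup.zpowers b) := by
      by_contra hcon
      have h1 : Subgroup.zpowers a = Subgroup.zpowers a ⊔ Subgroup.zpowers b :=
        Subgroup.eq_of_le_of_card_ge le_sup_left (by rw [hzp a ha]; omega)
      apply hb
      rw [h1]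
      exact Subgroup.mem_sup_right (Subgroup.mem_zpowers b)
    have hdvd : Nat.card ↥(Subgroup.zpowers a ⊔ Subgroup.zpowers b) ∣ r ^ 3 := by
      rw [← hcard]
      exact Subgroup.card_subgroup_dvd_card _
    obtain ⟨k, hk3, hk⟩ := (Nat.dvd_prime_pow hr).mp hdvd
    rw [hk] at hlt hle ⊢
    have h1 : 1 < k := by
      by_contra h
      have : k ≤ 1 := by omega
      have h2 := Nat.pow_le_pow_right (by omega : 0 < r) this
      rw [pow_one] at h2
      omega
    have h2 : k ≤ 2 := by
      by_contra h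
      have : 3 ≤ k := by omega
      have h2 := Nat.pow_le_pow_right (by omega : 0 < r) this
      have h3 : r * r < r ^ 3 := by
        have : r ^ 3 = r * r * r := by ring
        rw [this]
        nlinarith
      omega
    have : k = 2 := by omega
    rw [this]
  have huniq : ∀ (a b : G) (B : Subgroup G), a ≠ 1 → b ∉ Subgroup.zpowers a →
      Nat.card B = r ^ 2 → a ∈ B → b ∈ B → Subgroup.zpowers a ⊔ Subgroup.zpowers b = B := by
    intro a b B ha hb hB haB hbB
    exact Subgroup.eq_of_le_of_card_ge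
      (sup_le ((Subgroup.zpowers_le).mpr haB) ((Subgroup.zpowers_le).mpr hbB))
      (by rw [hB, hsup a b ha hb])
  have hcardF : ∀ H : Subgroup G, (Finset.univ.filter (fun g : G => g ∈ H)).card = Nat.card H := by
    intro H
    rw [Nat.card_eq_fintype_card, Fintype.card_subtype]
  have hG : (Finset.univ : Finset G).card = r ^ 3 := by
    rw [Finset.card_univ, ← Nat.card_eq_fintype_card, hcard]
  -- count 1
  have hcount1 : ∀ a : G, a ≠ 1 →
      (Finset.univ.filter (fun B : Subgroup G => Nat.card B = r ^ 2 ∧ a ∈ B)).card = r + 1 := by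
    intro a ha
    have hmaps : Set.MapsTo (fun b : G => Subgroup.zpowers a ⊔ Subgroup.zpowers b)
        ↑(Finset.univ.filter (fun b : G => b ∉ Subgroup.zpowers a))
        ↑(Finset.univ.filter (fun B : Subgroup G => Nat.card B = r ^ 2 ∧ a ∈ B)) := by
      intro b hb
      have hb' : b ∉ Subgroup.zpowers a := by simpa using hb
      simp only [Finset.coe_filter, Finset.mem_univ, true_and, Set.mem_ofPred_eq]
      exact ⟨hsup a b ha hb', Subgroup.mem_sup_left (Subgroup.mem_zpowers a)⟩
    have h1 := Finset.card_eq_sum_card_fiberwise hmaps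
    have hfib : ∀ B ∈ Finset.univ.filter (fun B : Subgroup G => Nat.card B = r ^ 2 ∧ a ∈ B),
        ((Finset.univ.filter (fun b : G => b ∉ Subgroup.zpowers a)).filter
          (fun b => Subgroup.zpowers a ⊔ Subgroup.zpowers b = B)).card = r ^ 2 - r := by
      intro B hB
      obtain ⟨hB1, hB2⟩ : Nat.card B = r ^ 2 ∧ a ∈ B := by simpa using hB
      have hset : (Finset.univ.filter (fun b : G => b ∉ Subgroup.zpowers a)).filter
          (fun b => Subgroup.zpowers a ⊔ Subgroup.zpowers b = B) =
          (Finset.univ.filter (fun g : G => g ∈ B)) \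
            (Finset.univ.filter (fun g : G => g ∈ Subgroup.zpowers a)) := by
        ext b
        simp only [Finset.mem_filter, Finset.mem_univ, true_and, Finset.mem_sdiff]
        constructor
        · rintro ⟨hb, hfb⟩
          refine ⟨?_, hb⟩
          rw [← hfb]
          exact Subgroup.mem_sup_right (Subgroup.mem_zpowers b)
        · rintro ⟨hbB, hb⟩
          exact ⟨hb, huniq a b B ha hb hB1 hB2 hbB⟩
      rw [hset, Finset.card_sdiff_of_subset, hcardF, hcardF, hB1, hzp a ha]
      intro g hg
      simp only [Finset.mem_filter, Finset.mem_univ, true_and] at hg ⊢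
      exact (Subgroup.zpowers_le.mpr hB2) hg
    rw [Finset.sum_congr rfl hfib, Finset.sum_const, smul_eq_mul] at h1
    have h2 : (Finset.univ.filter (fun b : G => b ∉ Subgroup.zpowers a)).card = r ^ 3 - r := by
      have h3 : Finset.univ.filter (fun b : G => b ∉ Subgroup.zpowers a) =
          Finset.univ \ (Finset.univ.filter (fun g : G => g ∈ Subgroup.zpowers a)) := by
        ext b
        simp
      rw [h3, Finset.card_sdiff_of_subset (Finset.subset_univ _), hG, hcardF, hzp a ha]
    rw [h2] at h1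
    have h4 : r ^ 3 - r = (r + 1) * (r ^ 2 - r) := by
      have h5 : r ≤ r ^ 2 := by nlinarith
      have h6 : r ≤ r ^ 3 := by nlinarith [Nat.pow_le_pow_right (by omega : 0 < r) (by norm_num : 1 ≤ 3)]
      zify [h5, h6]
      ring
    rw [h4] at h1
    have h7 : 0 < r ^ 2 - r := by
      have : r < r ^ 2 := by nlinarith
      omega
    exact (Nat.eq_of_mul_eq_mul_right h7 h1).symm
  have hconv : ∀ P : Subgroup G → Prop,
      Nat.card {B : Subgroup G // P B} = (Finset.univ.filter P).card := by
    intro P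
    rw [Nat.card_eq_fintype_card, Fintype.card_subtype]
  refine ⟨fun a ha => by rw [hconv]; convert hcount1 a ha, ?_⟩
  rw [hconv]
  -- count 2
  have hdc := Finset.sum_card_bipartiteAbove_eq_sum_card_bipartiteBelow
    (s := Finset.univ.filter (fun g : G => g ≠ 1))
    (t := Finset.univ.filter (fun B : Subgroup G => Nat.card B = r ^ 2))
    (r := fun (g : G) (B : Subgroup G) => g ∈ B)
  have hA : ∀ a ∈ Finset.univ.filter (fun g : G => g ≠ 1),
      (Finset.bipartiteAbove (fun (g : G) (B : Subgroup G) => g ∈ B)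
        (Finset.univ.filter (fun B : Subgroup G => Nat.card B = r ^ 2)) a).card = r + 1 := by
    intro a ha
    have ha1 : a ≠ 1 := by simpa using ha
    rw [← hcount1 a ha1]
    congr 1
    ext B
    simp [Finset.bipartiteAbove]
  have hB : ∀ B ∈ Finset.univ.filter (fun B : Subgroup G => Nat.card B = r ^ 2),
      (Finset.bipartiteBelow (fun (g : G) (B : Subgroup G) => g ∈ B)
        (Finset.univ.filter (fun g : G => g ≠ 1)) B).card = r ^ 2 - 1 := by
    intro B hB
    have hB1 : Nat.card B = r ^ 2 := by simpa using hB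
    have hset : Finset.bipartiteBelow (fun (g : G) (B : Subgroup G) => g ∈ B)
        (Finset.univ.filter (fun g : G => g ≠ 1)) B =
        (Finset.univ.filter (fun g : G => g ∈ B)).erase 1 := by
      ext g
      simp [Finset.bipartiteBelow, and_comm]
    rw [hset, Finset.card_erase_of_mem (by simp [one_mem]), hcardF, hB1]
  rw [Finset.sum_congr rfl hA, Finset.sum_congr rfl hB, Finset.sum_const, Finset.sum_const,
    smul_eq_mul, smul_eq_mul] at hdc
  have h1 : (Finset.univ.filter (fun g : G => g ≠ 1)).card = r ^ 3 - 1 := by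
    rw [Finset.filter_ne' Finset.univ 1, Finset.card_erase_of_mem (Finset.mem_univ _), hG]
  rw [h1] at hdc
  have h2 : (r ^ 3 - 1) * (r + 1) = (r ^ 2 + r + 1) * (r ^ 2 - 1) := by
    have h5 : 1 ≤ r ^ 2 := Nat.one_le_pow _ _ (by omega)
    have h6 : 1 ≤ r ^ 3 := Nat.one_le_pow _ _ (by omega)
    zify [h5, h6]
    ring
  rw [h2] at hdc
  have h7 : 0 < r ^ 2 - 1 := by
    have : 1 < r ^ 2 := by nlinarith
    omega
  convert (Nat.eq_of_mul_eq_mul_right h7 hdc).symm

variable {S : Type*} [Group S]

/-- subgroups of `S` inside `A` with a property = subgroups of `↥A` with the transported property -/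
theorem keya_transfer (A : Subgroup S) (P : Subgroup S → Prop) :
    Nat.card {B : Subgroup S // B ≤ A ∧ P B} =
      Nat.card {B' : Subgroup ↥A // P (B'.map A.subtype)} := by
  apply Nat.card_congr
  refine Equiv.symm (Equiv.ofBijective
    (fun B' : {B' : Subgroup ↥A // P (B'.map A.subtype)} =>
      (⟨B'.1.map A.subtype, Subgroup.map_subtype_le B'.1, B'.2⟩ :
        {B : Subgroup S // B ≤ A ∧ P B})) ⟨?_, ?_⟩)
  · rintro ⟨B1, h1⟩ ⟨B2, h2⟩ h
    apply Subtype.ext
    exact Subgroup.map_injective A.subtype_injective (congrArg Subtype.val h)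
  · rintro ⟨B, hBA, hP⟩
    refine ⟨⟨B.subgroupOf A, ?_⟩, ?_⟩
    · rw [Subgroup.map_subgroupOf_eq_of_le hBA]
      exact hP
    · apply Subtype.ext
      exact Subgroup.map_subgroupOf_eq_of_le hBA

/-- KEYA: parity of the number of hyperplanes of `A ≅ r³` (all / through a given `a ≠ 1`) -/
theorem ng_hyp_parity [Finite S] (r : ℕ) [Fact r.Prime] (hr2 : r ≠ 2) (A : Subgroup S)
    (hA : Cfsg.IsElementaryAbelian r A) (hA3 : Nat.card A = r ^ 3) :
    Odd (Nat.card {B : Subgroup S // B ≤ A ∧ Nat.card B = r ^ 2}) ∧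
    ∀ a ∈ A, a ≠ 1 → Even (Nat.card {B : Subgroup S // B ≤ A ∧ Nat.card B = r ^ 2 ∧ a ∈ B}) := by
  have hr : r.Prime := Fact.out
  have hodd : Odd r := hr.odd_of_ne_two hr2
  have hc : ∀ a b : ↥A, a * b = b * a := fun a b => by
    have := hA.1
    exact mul_comm' a b
  have hexp : ∀ g : ↥A, g ^ r = 1 := fun g => Subtype.ext (by simpa using hA.2 g.1 g.2)
  obtain ⟨h1, h2⟩ := keya_count hc r hexp hA3
  have hcm : ∀ B' : Subgroup ↥A, Nat.card (B'.map A.subtype) = Nat.card B' :=
    fun B' => Subgroup.card_map_of_injective A.subtype_injective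
  constructor
  · rw [keya_transfer A (fun B => Nat.card B = r ^ 2)]
    have h3 : Nat.card {B' : Subgroup ↥A // Nat.card (B'.map A.subtype) = r ^ 2} =
        Nat.card {B : Subgroup ↥A // Nat.card B = r ^ 2} := by
      apply Nat.card_congr
      exact Equiv.subtypeEquivRight (fun B' => by rw [hcm])
    rw [h3, h2]
    obtain ⟨k, hk⟩ := hodd
    exact ⟨2 * k * k + 3 * k + 1, by rw [hk]; ring⟩
  · intro a ha ha1
    rw [keya_transfer A (fun B => Nat.card B = r ^ 2 ∧ a ∈ B)]
    have h3 : Nat.card {B' : Subgroup ↥A // Nat.card (B'.map A.subtype) = r ^ 2 ∧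
          a ∈ B'.map A.subtype} =
        Nat.card {B : Subgroup ↥A // Nat.card B = r ^ 2 ∧ (⟨a, ha⟩ : ↥A) ∈ B} := by
      apply Nat.card_congr
      refine Equiv.subtypeEquivRight (fun B' => ?_)
      rw [hcm]
      have h4 : a ∈ B'.map A.subtype ↔ (⟨a, ha⟩ : ↥A) ∈ B' := by
        constructor
        · rintro ⟨x, hx, hxa⟩
          have h5 : x = ⟨a, ha⟩ := Subtype.ext hxa
          rwa [← h5]
        · intro h
          exact ⟨⟨a, ha⟩, h, rfl⟩
      rw [h4]
    rw [h3, h1 ⟨a, ha⟩ (by intro h; exact ha1 (congrArg Subtype.val h))]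
    exact hodd.add_one

end Cfsg.Agent.Helper57.NGKEYA
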