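import Cfsg.Agent.Helper91.DZD1

set_option autoImplicit false

/-!
Piece Q2 of CALL S4538 (helper40): for a permutation `κ ≠ 1` with `κ i ≤ i + 1` the composition
`i ↦ 1 + i - κ i` has two adjacent positions `j, j + 1` in one block, so `ṡ_j` lies in its
parabolic subgroup.
-/

namespace Cfsg.Agent.Helper57.DZ

open Cfsg.Agent.Helper40.DZ Cfsg.Agent.Helper44.PSLn Matrix

universe u

section Comb

variable {n : ℕ}

/-- partial sums of a composition -/
def q2S (μ : Fin n → ℕ) (j : Fin n) : ℕ :=
  ∑ k ∈ Finset.univ.filter (fun k : Fin n => k ≤ j), μ k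

theorem q2_compLabel (μ : Fin n → ℕ) (i : Fin n) :
    Cfsg.compLabel μ i = (Finset.univ.filter fun j : Fin n => q2S μ j ≤ i.val).card := rfl

theorem q2_label_eq (μ : Fin n → ℕ) (j : ℕ) (hj : j + 1 < n)
    (h : ∀ k : Fin n, q2S μ k ≠ j + 1) :
    Cfsg.compLabel μ (ia j hj) = Cfsg.compLabel μ (ib j hj) := by
  rw [q2_compLabel, q2_compLabel]
  congr 1
  apply Finset.filter_congr
  intro k _
  have := h k
  simp only [ia, ib]
  omega

theorem q2S_eq (μ : Fin n → ℕ) (k : Fin n) :
    q2S μ k = ∑ i : Fin n, if i.val ≤ k.val then μ i else 0 := by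
  unfold q2S
  rw [Finset.sum_filter]
  apply Finset.sum_congr rfl
  intro i _
  by_cases h : i ≤ k
  · rw [if_pos h, if_pos (Fin.le_def.mp h)]
  · rw [if_neg h, if_neg (fun h' => h (Fin.le_def.mpr h'))]

theorem q2_total (κ : Equiv.Perm (Fin n)) (hκ : ∀ i : Fin n, (κ i).val ≤ 1 + i.val) :
    ∑ i : Fin n, (1 + i.val - (κ i).val) = n := by
  have h1 : ∑ i : Fin n, (1 + i.val - (κ i).val) + ∑ i : Fin n, (κ i).val
      = ∑ i : Fin n, (1 + i.val) := by
    rw [← Finset.sum_add_distrib]
    apply Finset.sum_congr rfl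
    intro i _
    have := hκ i
    omega
  have h2 : ∑ i : Fin n, (κ i).val = ∑ i : Fin n, i.val := Equiv.sum_comp κ (fun i => i.val)
  have h3 : ∑ i : Fin n, (1 + i.val) = n + ∑ i : Fin n, i.val := by
    rw [Finset.sum_add_distrib]
    simp
  omega

theorem q2_perm_eq_one (κ : Equiv.Perm (Fin n)) (h : ∀ i : Fin n, (κ i).val ≤ i.val) :
    κ = 1 := by
  have h2 : ∑ i : Fin n, (κ i).val = ∑ i : Fin n, i.val := Equiv.sum_comp κ (fun i => i.val)
  refine Equiv.ext fun i => ?_
  rw [Equiv.Perm.one_apply]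
  by_contra hne
  have hlt : (κ i).val < i.val := lt_of_le_of_ne (h i) (fun e => hne (Fin.ext e))
  have := Finset.sum_lt_sum (fun i _ => h i) ⟨i, Finset.mem_univ i, hlt⟩
  omega

theorem q2_exists_gap (κ : Equiv.Perm (Fin n)) (hκ : ∀ i : Fin n, (κ i).val ≤ 1 + i.val)
    (hne : κ ≠ 1) :
    ∃ (j : ℕ) (_ : j + 1 < n), ∀ k : Fin n, q2S (fun i => 1 + i.val - (κ i).val) k ≠ j + 1 := by
  by_contra hcon
  push Not at hcon
  obtain ⟨μ, hμ⟩ : ∃ μ : Fin n → ℕ, μ = fun i => 1 + i.val - (κ i).val := ⟨_, rfl⟩
  rw [← hμ] at hcon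
  have htot : ∑ i : Fin n, μ i = n := by rw [hμ]; exact q2_total κ hκ
  have hsub : Finset.Icc 1 n ⊆ Finset.univ.image (q2S μ) := by
    intro v hv
    rw [Finset.mem_Icc] at hv
    rw [Finset.mem_image]
    by_cases hvn : v < n
    · obtain ⟨k, hk⟩ := hcon (v - 1) (by omega)
      exact ⟨k, Finset.mem_univ _, by omega⟩
    · have hv' : v = n := by omega
      have hn1 : n - 1 < n := by omega
      refine ⟨⟨n - 1, hn1⟩, Finset.mem_univ _, ?_⟩
      rw [hv']
      refine Eq.trans ?_ htot
      rw [q2S_eq]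
      apply Finset.sum_congr rfl
      intro i _
      have := i.isLt
      rw [if_pos (by simp only; omega)]
  have hcard : (Finset.univ.image (q2S μ)).card = n := by
    apply le_antisymm
    · calc (Finset.univ.image (q2S μ)).card ≤ (Finset.univ : Finset (Fin n)).card :=
            Finset.card_image_le
        _ = n := by simp
    · calc n = (Finset.Icc 1 n).card := by simp
        _ ≤ _ := Finset.card_le_card hsub
  have hinj : Function.Injective (q2S μ) := by
    have h1 : (Finset.univ.image (q2S μ)).card = (Finset.univ : Finset (Fin n)).card := by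
      rw [hcard]; simp
    have h2 := Finset.card_image_iff.mp h1
    exact fun a b hab => h2 (Finset.mem_coe.mpr (Finset.mem_univ a))
      (Finset.mem_coe.mpr (Finset.mem_univ b)) hab
  have himg : Finset.Icc 1 n = Finset.univ.image (q2S μ) := by
    apply Finset.eq_of_subset_of_card_le hsub
    rw [hcard]; simp
  have hpos : ∀ k : Fin n, 1 ≤ q2S μ k := by
    intro k
    have : q2S μ k ∈ Finset.univ.image (q2S μ) := Finset.mem_image_of_mem _ (Finset.mem_univ k)
    rw [← himg, Finset.mem_Icc] at this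
    exact this.1
  have hμ1 : ∀ k : Fin n, 1 ≤ μ k := by
    intro k
    by_contra h0
    have h0' : μ k = 0 := by omega
    by_cases hk0 : k.val = 0
    · have h3 : q2S μ k = 0 := by
        rw [q2S_eq]
        apply Finset.sum_eq_zero
        intro i _
        split_ifs with hi
        · have : i = k := Fin.ext (by omega)
          rw [this, h0']
        · rfl
      have := hpos k
      omega
    · have hk' : k.val - 1 < n := by omega
      have h3 : q2S μ k = q2S μ ⟨k.val - 1, hk'⟩ := by
        rw [q2S_eq, q2S_eq]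
        apply Finset.sum_congr rfl
        intro i _
        by_cases hik : i = k
        · subst hik
          rw [if_pos le_rfl, if_neg (by simp only; omega), h0']
        · have : i.val ≠ k.val := fun e => hik (Fin.ext e)
          by_cases hle : i.val ≤ k.val
          · rw [if_pos hle, if_pos (by simp only; omega)]
          · rw [if_neg hle, if_neg (by simp only; omega)]
      have h4 := congrArg Fin.val (hinj h3)
      simp only at h4
      omega
  apply hne
  apply q2_perm_eq_one
  intro i
  have h1 := hμ1 i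
  have h2 := hκ i
  rw [hμ] at h1
  simp only at h1
  omega

end Comb

section Mat

variable {n : ℕ} {F : Type u} [Field F]

local notation "SLn" => Matrix.SpecialLinearGroup (Fin n) F

variable [Fintype F]

/-- Q2: a composition `i ↦ 1 + i - κ i` with `κ ≠ 1` has two adjacent positions in one block. -/
theorem sdot_mem_par (κ : Equiv.Perm (Fin n)) (hκ : ∀ i : Fin n, (κ i).val ≤ 1 + i.val)
    (hne : κ ≠ 1) :
    ∃ (j : ℕ) (hj : j + 1 < n), sdot j hj ∈ parSL n F (fun i => 1 + i.val - (κ i).val) := by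
  obtain ⟨j, hj, hgap⟩ := q2_exists_gap κ hκ hne
  refine ⟨j, hj, ?_⟩
  have hlab := q2_label_eq _ j hj hgap
  change ((Matrix.SpecialLinearGroup.toGL (sdot j hj) : GL (Fin n) F) :
    Matrix (Fin n) (Fin n) F).BlockTriangular _
  intro a b hab
  have hcoe : ((Matrix.SpecialLinearGroup.toGL (sdot j hj) : GL (Fin n) F) :
      Matrix (Fin n) (Fin n) F) a b = ((sdot j hj : SLn) : Matrix (Fin n) (Fin n) F) a b := rfl
  rw [hcoe, Cfsg.Agent.Helper91.DZ.sdot_apply]
  split_ifs with h1 h2 h3
  · exfalso
    rw [h1.1, h1.2, hlab] at hab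
    exact lt_irrefl _ hab
  · exfalso
    rw [h2.1, h2.2, hlab] at hab
    exact lt_irrefl _ hab
  · exfalso
    rw [h3.1] at hab
    exact lt_irrefl _ hab
  · rfl

end Mat

end Cfsg.Agent.Helper57.DZ
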