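import Mathlib
import Cfsg.Agent.Helper9.BRDefs
import Cfsg.Agent.Helper82.A7Defs

/-!
# CALL S0984 (helper82), piece KJ10: the centraliser of `x` has no normal subgroup of order 10
-/

set_option autoImplicit false
set_option linter.style.haveILetI false
open Cfsg
open scoped ComplexConjugate

universe u

namespace Cfsg.Agent.Helper57

theorem a7kj10_aux : ∀ a : ZMod 5, a ^ 9 = 1 → a = 1 := by decide

/-- PIECE KJ10 -/
theorem a7_cent_ne_90 {G : Type u} [Group G] [Finite G] (P : Sylow 3 G)
    (hP9 : Nat.card (P : Subgroup G) = 9) (x : G) (hxP : x ∈ (P : Subgroup G))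
    (hcent : ∀ m ∈ Subgroup.normalizer ((P : Subgroup G) : Set G), m * x = x * m →
      m ∈ (P : Subgroup G))
    (L : Subgroup G) (hL : L ≤ Subgroup.centralizer ({x} : Set G))
    (hLn : ∀ g : G, g * x = x * g → ∀ l ∈ L, g * l * g⁻¹ ∈ L)
    (hL10 : Nat.card L = 10) : False := by
  classical
  haveI : Fact (Nat.Prime 5) := ⟨by norm_num⟩
  haveI : Fact (Nat.Prime 3) := ⟨by norm_num⟩
  -- an element of order 5 in L
  obtain ⟨r', hr'⟩ := exists_prime_orderOf_dvd_card' (G := L) 5 (by rw [hL10]; norm_num)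
  have hrL : (r' : G) ∈ L := r'.2
  have hr5 : orderOf (r' : G) = 5 := by rw [Subgroup.orderOf_coe]; exact hr'
  generalize (r' : G) = r at hrL hr5
  have hr5' : r ^ 5 = 1 := by rw [← hr5]; exact pow_orderOf_eq_one r
  -- P is commutative
  have hPcomm : ∀ a ∈ (P : Subgroup G), ∀ b ∈ (P : Subgroup G), a * b = b * a := by
    intro a ha b hb
    have h := IsPGroup.commutative_of_card_eq_prime_sq (p := 3) (G := (P : Subgroup G))
      (by rw [hP9]; norm_num) ⟨a, ha⟩ ⟨b, hb⟩
    exact congrArg Subtype.val h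
  -- the subgroup generated by r has index 2 in L
  have hzL : Subgroup.zpowers r ≤ L := by
    rw [Subgroup.zpowers_le]; exact hrL
  have hcardH : Nat.card ((Subgroup.zpowers r).subgroupOf L) = 5 := by
    rw [Nat.card_congr (Subgroup.subgroupOfEquivOfLe hzL).toEquiv, Nat.card_zpowers, hr5]
  have hidx : ((Subgroup.zpowers r).subgroupOf L).index = 2 := by
    have h := Subgroup.card_mul_index ((Subgroup.zpowers r).subgroupOf L)
    rw [hcardH, hL10] at h
    omega
  -- every element of L of order dividing 5 lies in zpowers r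
  have key : ∀ s ∈ L, s ^ 5 = 1 → s ∈ Subgroup.zpowers r := by
    intro s hs hs5
    have h2 := Subgroup.sq_mem_of_index_two hidx (⟨s, hs⟩ : L)
    rw [Subgroup.mem_subgroupOf] at h2
    have h2' : s ^ 2 ∈ Subgroup.zpowers r := by simpa using h2
    have h6 : (s ^ 2) ^ 3 = s := by
      rw [← pow_mul]
      calc s ^ (2 * 3) = s ^ 5 * s := by rw [← pow_succ]
        _ = s := by rw [hs5, one_mul]
    rw [← h6]
    exact Subgroup.pow_mem _ h2' 3
  -- r commutes with P
  have hrP : ∀ y ∈ (P : Subgroup G), y * r = r * y := by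
    intro y hy
    have hyx : y * x = x * y := hPcomm y hy x hxP
    have hconjL : y * r * y⁻¹ ∈ L := hLn y hyx r hrL
    have hconj5 : (y * r * y⁻¹) ^ 5 = 1 := by
      rw [conj_pow, hr5']; group
    obtain ⟨k, hk⟩ := Subgroup.mem_zpowers_iff.mp (key _ hconjL hconj5)
    have hy9 : y ^ 9 = 1 := by
      have h := pow_card_eq_one' (G := (P : Subgroup G)) (x := ⟨y, hy⟩)
      rw [hP9] at h
      simpa using congrArg Subtype.val h
    have hpow : ∀ n : ℕ, y ^ n * r * (y ^ n)⁻¹ = r ^ (k ^ n) := by
      intro n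
      induction n with
      | zero => simp
      | succ n ih =>
        have e1 : y ^ (n + 1) * r * (y ^ (n + 1))⁻¹ = y * (y ^ n * r * (y ^ n)⁻¹) * y⁻¹ := by
          rw [pow_succ']; group
        rw [e1, ih, ← conj_zpow, ← hk, ← zpow_mul, pow_succ']
    have h9 := hpow 9
    rw [hy9] at h9
    simp only [one_mul, inv_one, mul_one] at h9
    have hdvd : (5 : ℤ) ∣ k ^ 9 - 1 := by
      have : r ^ (k ^ 9 - 1) = 1 := by
        rw [zpow_sub, ← h9, zpow_one, mul_inv_cancel]
      have h := (orderOf_dvd_iff_zpow_eq_one).mpr this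
      rw [hr5] at h
      exact_mod_cast h
    have hk1 : (5 : ℤ) ∣ k - 1 := by
      have hz : ((k : ZMod 5)) ^ 9 = 1 := by
        have := (ZMod.intCast_zmod_eq_zero_iff_dvd (k ^ 9 - 1) 5).mpr hdvd
        push_cast at this
        exact sub_eq_zero.mp this
      have hz1 : (k : ZMod 5) = 1 := a7kj10_aux _ hz
      apply (ZMod.intCast_zmod_eq_zero_iff_dvd (k - 1) 5).mp
      push_cast
      rw [hz1, sub_self]
    have hrk : r ^ k = r := by
      have : r ^ (k - 1) = 1 := by
        apply (orderOf_dvd_iff_zpow_eq_one).mp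
        rw [hr5]; exact_mod_cast hk1
      rw [zpow_sub, zpow_one] at this
      exact mul_inv_eq_one.mp this
    rw [hrk] at hk
    calc y * r = (y * r * y⁻¹) * y := by group
      _ = r * y := by rw [← hk]
  -- so r lies in the normalizer of P and commutes with x, hence lies in P
  have hrN : r ∈ Subgroup.normalizer ((P : Subgroup G) : Set G) := by
    apply Subgroup.centralizer_le_normalizer
    rw [Subgroup.mem_centralizer_iff]
    intro h hh
    exact hrP h hh
  have hrx : r * x = x * r := by
    have := hL hrL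
    rw [Subgroup.mem_centralizer_iff] at this
    exact (this x rfl).symm
  have hrPmem : r ∈ (P : Subgroup G) := hcent r hrN hrx
  have hdiv : orderOf r ∣ 9 := by
    have h := orderOf_dvd_natCard (⟨r, hrPmem⟩ : (P : Subgroup G))
    rw [hP9, Subgroup.orderOf_mk] at h
    exact h
  rw [hr5] at hdiv
  norm_num at hdiv

end Cfsg.Agent.Helper57
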