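import Mathlib
import Cfsg.Agent.Helper57.G3DataC
import Cfsg.Agent.Helper29.G3P5
import Cfsg.Agent.Helper29.G3P6
import Cfsg.Agent.Helper58.G3P7
import Cfsg.Agent.Helper58.G3P8
import Cfsg.Agent.Helper58.G3P9
import Cfsg.Agent.Helper58.G3P10
import Cfsg.Agent.Helper66.G3P11
import Cfsg.Agent.Helper76.G3P2
import Cfsg.Agent.Helper76.G3P3
import Cfsg.Agent.Helper17.ChevH

/-!
# The Chevalley group `G₂(3)` on 728 points: the element orders (seat helper57)

Assembly of CALL S2518.  `g3_hom`: the group `chevG2.group (ZMod 3)` embeds in `Sym(728)`, the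
root elements `x_r(1)` acting by the tables `g3PiL` (pieces P9, P10, P11 of helper58 and helper66).
`g3_perm_main`: in a subgroup of `Sym(728)` of order `4245696` containing the twelve root
permutations, every element has a power `σ ^ L = 1` with `L ∈ {1, 2, 3, 4, 6, 7, 8, 9, 12, 13}`, and
there is an element of order 6 (pieces P2, P3 of helper76, P5, P6 of helper29, P7, P8 of helper58,
and the table checks of `G3DataA`, `G3DataB`, `G3DataC`).
-/

set_option autoImplicit false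

namespace Cfsg.Agent.Helper57

open Cfsg.Lie Matrix Cfsg.Agent.Helper29 Cfsg.Agent.Helper58 Cfsg.Agent.Helper66
  Cfsg.Agent.Helper76

theorem g3All_of (f : ℕ → Bool) : ∀ n : ℕ, (∀ x, x < n → f x = true) → g3All n f = true := by
  intro n
  induction n with
  | zero => intro _; rfl
  | succ n ih =>
    intro h
    show (f n && g3All n f) = true
    rw [h n (Nat.lt_succ_self n), ih (fun x hx => h x (Nat.lt_succ_of_lt hx))]
    rfl

theorem g3MvChkL_get (w w' : ℕ) : ∀ (rows : List ℕ) (i : ℕ), g3MvChkL rows w w' i = true →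
    ∀ j, j < rows.length →
      Nat.beq (Nat.mod (g3Dot (rows.getD j 0) w 14) 3) (g3Dig w' (i + j)) = true := by
  intro rows
  induction rows with
  | nil =>
    intro i _ j hj
    simp at hj
  | cons a rs ih =>
    intro i h j hj
    have h' : (Nat.beq (Nat.mod (g3Dot a w 14) 3) (g3Dig w' i) && g3MvChkL rs w w' (i + 1)) = true := h
    rw [Bool.and_eq_true] at h'
    cases j with
    | zero => exact h'.1
    | succ j =>
      have h2 := ih (i + 1) h'.2 j (by simpa using hj)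
      have e : i + 1 + j = i + (j + 1) := by omega
      rw [e] at h2
      simpa using h2

theorem g3MvChkL_spec (rows : List ℕ) (hlen : rows.length = 14) (w w' : ℕ)
    (h : g3MvChkL rows w w' 0 = true) : g3MvChk rows w w' = true := by
  apply g3All_of
  intro x hx
  have h2 := g3MvChkL_get w w' rows 0 h x (by rw [hlen]; exact hx)
  rw [Nat.zero_add] at h2
  exact h2

theorem g3Mem_spec : ∀ (l : List ℕ) (a : ℕ), g3Mem l a = false → a ∉ l := by
  intro l
  induction l with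
  | nil => intro a _; simp
  | cons b l ih =>
    intro a h
    have h' : (Nat.beq b a || g3Mem l a) = false := h
    rw [Bool.or_eq_false_iff] at h'
    have hne : b ≠ a := by
      intro hba
      rw [hba, Nat.beq_refl] at h'
      exact absurd h'.1 (by decide)
    intro hmem
    rcases List.mem_cons.1 hmem with h1 | h1
    · exact hne h1.symm
    · exact ih a h'.2 h1

theorem g3Distinct_spec : ∀ l : List ℕ, g3Distinct l = true → l.Nodup := by
  intro l
  induction l with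
  | nil => intro _; exact List.nodup_nil
  | cons a l ih =>
    intro h
    have h' : (!(g3Mem l a) && g3Distinct l) = true := h
    rw [Bool.and_eq_true] at h'
    have h1 : g3Mem l a = false := by simpa using h'.1
    exact List.nodup_cons.2 ⟨g3Mem_spec l a h1, ih h'.2⟩

theorem g3_act_spec (N : ℕ) (rows : List ℕ) (hlen : rows.length = 14)
    (h : g3ActChk N rows = true) (p : Fin 728) :
    ∃ h : g3Ent N p.val < 728, (g3Mat rows).mulVec (g3V p) = g3V ⟨g3Ent N p.val, h⟩ := by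
  have h1 := g3All_spec _ 728 h p.val p.isLt
  simp only [g3Force_eq, Bool.and_eq_true] at h1
  obtain ⟨hlt, hmv⟩ := h1
  have hlt' : g3Ent N p.val < 728 := by
    rw [Nat.blt_eq] at hlt
    exact hlt
  exact ⟨hlt', g3_mv_spec rows _ _ (g3MvChkL_spec rows hlen _ _ hmv)⟩

theorem g3_act_all : ∀ r : Fin 12, g3ActChk (g3PiL.getD r.val 0) (g3Rows.getD r.val []) = true ∧
    (g3Rows.getD r.val []).length = 14 := by
  intro r
  fin_cases r
  exacts [⟨g3_act_0, rfl⟩, ⟨g3_act_1, rfl⟩, ⟨g3_act_2, rfl⟩, ⟨g3_act_3, rfl⟩, ⟨g3_act_4, rfl⟩,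
    ⟨g3_act_5, rfl⟩, ⟨g3_act_6, rfl⟩, ⟨g3_act_7, rfl⟩, ⟨g3_act_8, rfl⟩, ⟨g3_act_9, rfl⟩,
    ⟨g3_act_10, rfl⟩, ⟨g3_act_11, rfl⟩]

theorem g3_hact (r : Fin 12) (p : Fin 728) : ∃ h : g3Ent (g3PiL.getD r.val 0) p.val < 728,
    (chevG2.xMat (ZMod 3) r 1).mulVec (g3V p) = g3V ⟨g3Ent (g3PiL.getD r.val 0) p.val, h⟩ := by
  rw [g3_x1 r]
  exact g3_act_spec _ _ (g3_act_all r).2 (g3_act_all r).1 p

theorem g3_hinj : Function.Injective g3V := by
  intro p q h
  have hp : g3Code p.val < 3 ^ 14 := by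
    have h1 := g3All_spec _ 728 g3_code_lt p.val p.isLt
    rw [Nat.blt_eq] at h1
    exact h1
  have hq : g3Code q.val < 3 ^ 14 := by
    have h1 := g3All_spec _ 728 g3_code_lt q.val q.isLt
    rw [Nat.blt_eq] at h1
    exact h1
  have h2 : g3Code p.val = g3Code q.val := g3Vec_inj _ _ hp hq h
  have h3 := List.inj_on_of_nodup_map (g3Distinct_spec _ g3_code_distinct)
    (List.mem_range.2 p.isLt) (List.mem_range.2 q.isLt) h2
  exact Fin.ext h3

set_option maxRecDepth 100000 in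
theorem g3_x0 : ∀ r : Fin 12, chevG2.xMat (ZMod 3) r 0 = 1 := by decide +kernel

theorem g3_xadd (r : Fin 12) (t u : ZMod 3) :
    chevG2.xMat (ZMod 3) r t * chevG2.xMat (ZMod 3) r u = chevG2.xMat (ZMod 3) r (t + u) := by
  have hD : chevG2 ∈ [chevG2, chevB2, chevD4, chevF4, chevE6, chevE7, chevE8] := by simp
  have hr : r.val < chevG2.nroots := r.isLt
  have h := Cfsg.Agent.Helper17.x_add_of_mem (F := ZMod 3) hD hr t u
  unfold ChevalleyDatum.x at h
  rw [dif_pos hr, dif_pos hr, dif_pos hr] at h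
  exact h

/-- The Chevalley group `G₂(3)` embeds in `Sym(728)`, the root elements acting by the tables
`g3PiL`. -/
theorem g3_hom : ∃ θ : ↥(chevG2.group (ZMod 3)) →* Equiv.Perm (Fin 728), Function.Injective θ ∧
    ∀ N ∈ g3PiL, g3Good θ.range N := by
  refine g3_hom_of_checks g3V g3PiL rfl g3_x0 ?_ ?_ g3_hact g3_hinj
    (fun k => ⟨g3Comb k, g3_comb k⟩)
  · intro r
    have h := g3_xadd r 1 1
    have e : (1 : ZMod 3) + 1 = 2 := by decide
    rw [e] at h
    exact h.symm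
  · intro r
    have h := g3_xadd r 2 1
    have e : (2 : ZMod 3) + 1 = 0 := by decide
    rw [e, g3_x0 r] at h
    exact h

theorem g3_T1_good (R : Subgroup (Equiv.Perm (Fin 728))) (hG : ∀ N ∈ g3Gs1, g3Good R N) :
    ∀ N ∈ g3T1, g3Good R N := by
  intro N hN
  simp only [g3T1, List.mem_append] at hN
  rcases hN with ((((((((((((((((h | h) | h) | h) | h) | h) | h) | h) | h) | h) | h) | h) | h) | h) | h) | h) | h) | h
  exacts [g3_good_words R g3Gs1 hG g3T1_0 g3W1_0 g3_c3_0 N h, g3_good_words R g3Gs1 hG g3T1_1 g3W1_1 g3_c3_1 N h, g3_good_words R g3Gs1 hG g3T1_2 g3W1_2 g3_c3_2 N h, g3_good_words R g3Gs1 hG g3T1_3 g3W1_3 g3_c3_3 N h, g3_good_words R g3Gs1 hG g3T1_4 g3W1_4 g3_c3_4 N h, g3_good_words R g3Gs1 hG g3T1_5 g3W1_5 g3_c3_5 N h, g3_good_words R g3Gs1 hG g3T1_6 g3W1_6 g3_c3_6 N h, g3_good_words R g3Gs1 hG g3T1_7 g3W1_7 g3_c3_7 N h, g3_good_words R g3Gs1 hG g3T1_8 g3W1_8 g3_c3_8 N h, g3_good_words R g3Gs1 hG g3T1_9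 g3W1_9 g3_c3_9 N h, g3_good_words R g3Gs1 hG g3T1_10 g3W1_10 g3_c3_10 N h, g3_good_words R g3Gs1 hG g3T1_11 g3W1_11 g3_c3_11 N h, g3_good_words R g3Gs1 hG g3T1_12 g3W1_12 g3_c3_12 N h, g3_good_words R g3Gs1 hG g3T1_13 g3W1_13 g3_c3_13 N h, g3_good_words R g3Gs1 hG g3T1_14 g3W1_14 g3_c3_14 N h, g3_good_words R g3Gs1 hG g3T1_15 g3W1_15 g3_c3_15 N h, g3_good_words R g3Gs1 hG g3T1_16 g3W1_16 g3_c3_16 N h, g3_good_words R g3Gs1 hG g3T1_17 g3W1_17 g3_c3_17 N h]

theorem g3_chk_one (N1 : ℕ) (h : (g3TU.all fun Nu => g3T2.all fun N2 => g3Chk 5 10 Nu N1 N2) = true) :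
    ∀ Nu ∈ g3TU, ∀ N2 ∈ g3T2, g3Chk 5 10 Nu N1 N2 = true := by
  intro Nu hNu N2 hN2
  rw [List.all_eq_true] at h
  have h2 := h Nu hNu
  rw [List.all_eq_true] at h2
  exact h2 N2 hN2

theorem g3_chk_all : ∀ N1 ∈ g3T1, ∀ Nu ∈ g3TU, ∀ N2 ∈ g3T2, g3Chk 5 10 Nu N1 N2 = true := by
  intro N1 hN
  simp only [g3T1, List.mem_append] at hN
  have k0 := g3_chk_0
  rw [List.all_eq_true] at k0
  have k1 := g3_chk_1
  rw [List.all_eq_true] at k1
  have k2 := g3_chk_2
  rw [List.all_eq_true] at k2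
  have k3 := g3_chk_3
  rw [List.all_eq_true] at k3
  have k4 := g3_chk_4
  rw [List.all_eq_true] at k4
  have k5 := g3_chk_5
  rw [List.all_eq_true] at k5
  have k6 := g3_chk_6
  rw [List.all_eq_true] at k6
  have k7 := g3_chk_7
  rw [List.all_eq_true] at k7
  have k8 := g3_chk_8
  rw [List.all_eq_true] at k8
  have k9 := g3_chk_9
  rw [List.all_eq_true] at k9
  have k10 := g3_chk_10
  rw [List.all_eq_true] at k10
  have k11 := g3_chk_11
  rw [List.all_eq_true] at k11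
  have k12 := g3_chk_12
  rw [List.all_eq_true] at k12
  have k13 := g3_chk_13
  rw [List.all_eq_true] at k13
  have k14 := g3_chk_14
  rw [List.all_eq_true] at k14
  have k15 := g3_chk_15
  rw [List.all_eq_true] at k15
  have k16 := g3_chk_16
  rw [List.all_eq_true] at k16
  have k17 := g3_chk_17
  rw [List.all_eq_true] at k17
  rcases hN with ((((((((((((((((h | h) | h) | h) | h) | h) | h) | h) | h) | h) | h) | h) | h) | h) | h) | h) | h) | h
  exacts [g3_chk_one N1 (k0 N1 h), g3_chk_one N1 (k1 N1 h), g3_chk_one N1 (k2 N1 h), g3_chk_one N1 (k3 N1 h), g3_chk_one N1 (k4 N1 h), g3_chk_one N1 (k5 N1 h), g3_chk_one N1 (k6 N1 h), g3_chk_one N1 (k7 N1 h), g3_chk_one N1 (k8 N1 h), g3_chk_one N1 (k9 N1 h), g3_chk_one N1 (k10 N1 h), g3_chk_one N1 (k11 N1 h), g3_chk_one N1 (k12 N1 h), g3_chk_one N1 (k13 N1 h), g3_chk_one N1 (k14 N1 h), g3_chk_one N1 (k15 N1 h), g3_chk_one N1 (k16 N1 h), g3_chk_one N1 (k17 N1 h)]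

/-- In a subgroup of `Sym(728)` of order `4245696` containing the twelve root permutations, every
element has order dividing one of `7, 8, 9, 12, 13`, and there is an element of order 6. -/
theorem g3_perm_main (R : Subgroup (Equiv.Perm (Fin 728))) (hP : ∀ N ∈ g3PiL, g3Good R N)
    (hR : Nat.card R = 4245696) :
    (∀ σ ∈ R, ∃ L : ℕ, g3Ok L = true ∧ σ ^ L = 1) ∧ ∃ σ ∈ R, orderOf σ = 6 := by
  have hGs1 := g3_good_words R g3PiL hP g3Gs1 g3W1g g3_c1
  have hGs2 := g3_good_words R g3Gs1 hGs1 g3Gs2 g3W2g g3_c2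
  have hT1 := g3_T1_good R hGs1
  have hT2 := g3_good_words R g3Gs2 hGs2 g3T2 g3W2 g3_c4
  have hTU := g3_good_words R g3PiL hP g3TU g3WU g3_c5
  have htr : ∀ x : Fin 728, ∃ σ ∈ R, σ 0 = x := by
    intro x
    obtain ⟨p, hp, σ, hσ, hσp⟩ := g3_forest R g3PiL hP [0] g3Par0N g3Lt0N g3Rk0N g3_c6 x
    have hp0 : p = 0 := by
      apply Fin.ext
      simpa using hp
    rw [hp0] at hσp
    exact ⟨σ, hσ, hσp⟩
  have hR' : Nat.card R = 728 * (g3T1.length * g3T2.length) := by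
    rw [g3_c9c.1, g3_c9c.2, hR]
  have henum := g3_stab_tables R (5 : Fin 728) (10 : Fin 728) g3T1 g3T2 hR' htr hT1 hT2 g3_c8b
    g3_c8c g3_c9a g3_c9b
  have hid : ∀ x : Fin 728, g3Ent g3Nid x.val = x.val := fun x =>
    Nat.eq_of_beq_eq_true (g3All_spec _ 728 g3_c12a x.val x.isLt)
  have hbase := g3_base R (5 : Fin 728) (10 : Fin 728) g3T1 g3T2 henum hT2
    (fun N hN => (g3_c8c N hN).2) g3_c9a g3_c9b g3Nid hid g3_c12b.1 g3_c12b.2
  refine ⟨?_, ?_⟩
  · intro σ hσ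
    have hGs1' : ∀ N ∈ g3Gs1, g3Good
        (R ⊓ MulAction.stabilizer (Equiv.Perm (Fin 728)) (0 : Fin 728)) N := by
      intro N hN
      obtain ⟨τ, hτ, hτf⟩ := hGs1 N hN
      refine ⟨τ, ⟨hτ, ?_⟩, hτf⟩
      have h0 : τ 0 = 0 := by
        apply Fin.ext
        rw [hτf]
        exact g3_c8a N hN
      exact h0
    obtain ⟨p, hp, s, hs, hsp⟩ := g3_forest _ g3Gs1 hGs1' g3Reps g3Par1N g3Lt1N g3Rk1N g3_c7 (σ 0)
    have hs0 : s 0 = 0 := hs.2
    rw [← g3_c10] at hp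
    obtain ⟨Nu, hNu, hNup⟩ := List.mem_map.1 hp
    obtain ⟨u, hu, huf⟩ := hTU Nu hNu
    have hu0 : u 0 = p := by
      apply Fin.ext
      rw [huf]
      exact hNup
    have hρ : s⁻¹ * σ * s ∈ R := R.mul_mem (R.mul_mem (R.inv_mem hs.1) hσ) hs.1
    have hρ0 : (s⁻¹ * σ * s) 0 = p := by
      show s⁻¹ (σ (s 0)) = p
      rw [hs0, ← hsp]
      simp
    have hτ0 : (u⁻¹ * (s⁻¹ * σ * s)) 0 = 0 := by
      show u⁻¹ ((s⁻¹ * σ * s) 0) = 0
      rw [hρ0, ← hu0]
      simp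
    obtain ⟨N1, hN1, N2, hN2, hf⟩ := henum (u⁻¹ * (s⁻¹ * σ * s))
      (R.mul_mem (R.inv_mem hu) hρ) hτ0
    have hρf : ∀ x : Fin 728, ((s⁻¹ * σ * s) x).val = g3Comp Nu N1 N2 x.val := by
      intro x
      have h1 : (s⁻¹ * σ * s) x = u ((u⁻¹ * (s⁻¹ * σ * s)) x) := by simp
      rw [h1, huf, hf]
      rfl
    obtain ⟨L, hL, hρL⟩ := g3_chk_spec R (5 : Fin 728) (10 : Fin 728) hbase Nu N1 N2
      (g3_chk_all N1 hN1 Nu hNu N2 hN2) (s⁻¹ * σ * s) hρ hρf
    refine ⟨L, hL, ?_⟩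
    have h2 : σ = s * (s⁻¹ * σ * s) * s⁻¹ := by simp [mul_assoc]
    rw [h2, conj_pow, hρL]
    simp
  · obtain ⟨m1, m2, m3⟩ := g3_six_mem
    have hG3 : ∀ G ∈ [g3TU.getD 0 0, g3T1.getD 0 0, g3T2.getD 5 0], g3Good R G := by
      intro G hG
      rw [List.mem_cons, List.mem_cons, List.mem_singleton] at hG
      rcases hG with rfl | rfl | rfl
      · exact hTU _ m1
      · exact hT1 _ m2
      · exact hT2 _ m3
    obtain ⟨σ, hσ, hσf⟩ := g3_good_words R _ hG3 [g3N6] [[0, 1, 2]] g3_six_word g3N6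
      (List.mem_singleton.2 rfl)
    exact ⟨σ, hσ, g3_order_six σ g3N6 hσf g3_six_pow (1 : Fin 728) (1 : Fin 728)
      g3_six_ne.1 g3_six_ne.2⟩

end Cfsg.Agent.Helper57
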