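import Cfsg.Prelude.Def_Transfer
import Cfsg.Prelude.Def_Solvable
import Cfsg.Agent.Helper63.N15Defs
import Cfsg.Agent.Helper1.PPrimeCore

/-! # CALL S4415 part B (helper63), piece P0 -/

set_option autoImplicit false

namespace Cfsg.Agent.Helper57.N15

open Cfsg.Agent.Helper63.N15

section slevel

variable {S : Type*} [Group S] [Finite S] {E : Type*} [AddCommGroup E] [Module (ZMod 3) E]
  [Finite E]

/-- P0. `O_{3'}(S)` is a normal subgroup of order prime to `3`. -/
theorem p0 (S : Type*) [Group S] [Finite S] :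
    (Cfsg.pPrimeCore 3 S).Normal ∧ (Nat.card ↥(Cfsg.pPrimeCore 3 S)).Coprime 3 :=
  ⟨Cfsg.Agent.Helper1.pPrimeCore_normal 3, Cfsg.Agent.Helper1.pPrimeCore_coprime 3⟩

end slevel

end Cfsg.Agent.Helper57.N15
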