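import Cfsg.Prelude.Def_Transfer
import Cfsg.Prelude.Def_Solvable
import Cfsg.Agent.Helper63.N15Defs

/-! # CALL S4415 part B (helper63), piece P2a: ranks of `1 + b + b²` and `b - 1` -/

set_option autoImplicit false

namespace Cfsg.Agent.Helper57.N15

open Cfsg.Agent.Helper63.N15

theorem p2a_span2 {K V : Type*} [Field K] [AddCommGroup V] [Module K V] [FiniteDimensional K V]
    (h : Module.finrank K V ≤ 2) :
    ∃ a₁ a₂ : V, ∀ w : V, ∃ k₁ k₂ : K, w = k₁ • a₁ + k₂ • a₂ := by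
  obtain ⟨d, hd, ⟨bs⟩⟩ : ∃ d, d ≤ 2 ∧ Nonempty (Module.Basis (Fin d) K V) :=
    ⟨_, h, ⟨Module.finBasis K V⟩⟩
  interval_cases d
  · refine ⟨0, 0, fun w => ⟨0, 0, ?_⟩⟩
    have := bs.sum_repr w
    simp at this
    simp [← this]
  · refine ⟨bs 0, 0, fun w => ⟨bs.repr w 0, 0, ?_⟩⟩
    have := bs.sum_repr w
    rw [Fin.sum_univ_one] at this
    simp [this]
  · refine ⟨bs 0, bs 1, fun w => ⟨bs.repr w 0, bs.repr w 1, ?_⟩⟩
    have := bs.sum_repr w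
    rw [Fin.sum_univ_two] at this
    exact this.symm

theorem p2a_span1 {K V : Type*} [Field K] [AddCommGroup V] [Module K V] [FiniteDimensional K V]
    (h : Module.finrank K V ≤ 1) :
    ∃ a₁ : V, ∀ w : V, ∃ k₁ : K, w = k₁ • a₁ := by
  obtain ⟨d, hd, ⟨bs⟩⟩ : ∃ d, d ≤ 1 ∧ Nonempty (Module.Basis (Fin d) K V) :=
    ⟨_, h, ⟨Module.finBasis K V⟩⟩
  interval_cases d
  · refine ⟨0, fun w => ⟨0, ?_⟩⟩
    have := bs.sum_repr w
    simp at this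
    simp [← this]
  · refine ⟨bs 0, fun w => ⟨bs.repr w 0, ?_⟩⟩
    have := bs.sum_repr w
    rw [Fin.sum_univ_one] at this
    exact this.symm

section slevel

variable {S : Type*} [Group S] [Finite S] {E : Type*} [AddCommGroup E] [Module (ZMod 3) E]
  [Finite E]

/-- P2a. `N_b = 1 + b + b²` has rank `≤ 1` and `b - 1` has rank `≤ 2` on `E`. -/
theorem p2a (ρ : Representation (ZMod 3) S E) (b : S) (hb3 : b ^ 3 = 1)
    (E₀ E₁ : Submodule (ZMod 3) E) (hE01' : E₀ ⊔ E₁ = ⊤) (hE1 : ∀ v ∈ E₁, ρ b v = v)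
    (hE0inv : ∀ v ∈ E₀, ρ b v ∈ E₀) (hE0 : Nat.card ↥E₀ = 27) :
    (∃ w₀ : E, ∀ v : E, ∃ k : ZMod 3, v + ρ b v + ρ b (ρ b v) = k • w₀) ∧
      ∃ a₁ a₂ : E, ∀ v : E, ∃ k₁ k₂ : ZMod 3, ρ b v - v = k₁ • a₁ + k₂ • a₂ := by
  have h3 : ∀ y : E, y + y + y = 0 := by
    intro y
    have e : y + y + y = ((1 : ZMod 3) + 1 + 1) • y := by simp [add_smul]
    rw [e, show ((1 : ZMod 3) + 1 + 1) = 0 from by decide, zero_smul]
  have hT3 : ∀ v : E, ρ b (ρ b (ρ b v)) = v := by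
    intro v
    have hbbb : b * b * b = 1 := by rw [← pow_two, ← pow_succ, hb3]
    have := congrArg ρ hbbb
    rw [map_mul, map_mul, map_one] at this
    have h' := LinearMap.congr_fun this v
    simpa [Module.End.mul_apply] using h'
  -- `n = T - 1` restricted to `E₀`
  obtain ⟨n, hnE⟩ : ∃ n : E →ₗ[ZMod 3] E, ∀ x, n x = ρ b x - x :=
    ⟨ρ b - LinearMap.id, fun x => rfl⟩
  have hn : ∀ x ∈ E₀, n x ∈ E₀ := fun x hx => by
    rw [hnE]; exact E₀.sub_mem (hE0inv x hx) hx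
  obtain ⟨n₀, hn₀⟩ : ∃ n₀ : ↥E₀ →ₗ[ZMod 3] ↥E₀, ∀ x : ↥E₀, ((n₀ x : ↥E₀) : E) = ρ b x - x :=
    ⟨n.restrict hn, fun x => by rw [LinearMap.coe_restrict_apply, hnE]⟩
  have hnil : ∀ x : ↥E₀, n₀ (n₀ (n₀ x)) = 0 := by
    intro x
    apply Subtype.ext
    rw [hn₀, hn₀, hn₀]
    simp only [map_sub, Submodule.coe_zero]
    rw [hT3]
    have e : (x : E) - ρ b (ρ b x) - (ρ b (ρ b x) - ρ b x) - (ρ b (ρ b x) - ρ b x - (ρ b x - x)) =
        (ρ b x + ρ b x + ρ b x) - (ρ b (ρ b x) + ρ b (ρ b x) + ρ b (ρ b x)) := by abel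
    rw [e, h3, h3, sub_zero]
  have hfin : Module.finrank (ZMod 3) ↥E₀ = 3 := by
    have h1 := Module.natCard_eq_pow_finrank (K := ZMod 3) (V := ↥E₀)
    rw [hE0, Nat.card_zmod] at h1
    exact Nat.pow_right_injective (by norm_num : 2 ≤ 3) (h1.symm.trans (by norm_num : (27 : ℕ) = 3 ^ 3))
  have hnt : Nontrivial ↥E₀ := by
    apply (Finite.one_lt_card_iff_nontrivial).mp
    rw [hE0]; norm_num
  have hker : LinearMap.ker n₀ ≠ ⊥ := by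
    intro hk
    have hinj : Function.Injective n₀ := LinearMap.ker_eq_bot.mp hk
    obtain ⟨x, hx⟩ := exists_ne (0 : ↥E₀)
    apply hx
    apply hinj; apply hinj; apply hinj
    rw [hnil, map_zero, map_zero, map_zero]
  have hrk := LinearMap.finrank_range_add_finrank_ker n₀
  rw [hfin] at hrk
  have hk1 : 1 ≤ Module.finrank (ZMod 3) ↥(LinearMap.ker n₀) :=
    Submodule.one_le_finrank_iff.mpr hker
  have hr2 : Module.finrank (ZMod 3) ↥(LinearMap.range n₀) ≤ 2 := by omega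
  have hsq1 : LinearMap.range (n₀ ∘ₗ n₀) ≤ LinearMap.ker n₀ := by
    rintro _ ⟨x, rfl⟩
    rw [LinearMap.mem_ker, LinearMap.comp_apply, hnil]
  have hsq2 : LinearMap.range (n₀ ∘ₗ n₀) ≤ LinearMap.range n₀ := by
    rintro _ ⟨x, rfl⟩
    exact ⟨n₀ x, rfl⟩
  have hr1 : Module.finrank (ZMod 3) ↥(LinearMap.range (n₀ ∘ₗ n₀)) ≤ 1 := by
    have e1 := Submodule.finrank_mono hsq1
    have e2 := Submodule.finrank_mono hsq2
    omega
  obtain ⟨w₀, hw₀⟩ := p2a_span1 hr1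
  obtain ⟨a₁, a₂, ha⟩ := p2a_span2 hr2
  have hdec : ∀ v : E, ∃ v₀ ∈ E₀, ∃ v₁ ∈ E₁, v₀ + v₁ = v := by
    intro v
    have hv : v ∈ E₀ ⊔ E₁ := by rw [hE01']; exact Submodule.mem_top
    exact Submodule.mem_sup.mp hv
  refine ⟨⟨((w₀ : ↥E₀) : E), fun v => ?_⟩, ((a₁ : ↥E₀) : E), ((a₂ : ↥E₀) : E), fun v => ?_⟩
  · obtain ⟨v₀, hv₀, v₁, hv₁, rfl⟩ := hdec v
    obtain ⟨k, hk⟩ := hw₀ ⟨(n₀ ∘ₗ n₀) ⟨v₀, hv₀⟩, ⟨_, rfl⟩⟩
    refine ⟨k, ?_⟩
    have hk' := congrArg (fun z : ↥(LinearMap.range (n₀ ∘ₗ n₀)) => ((z : ↥E₀) : E)) hk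
    simp only [LinearMap.comp_apply, hn₀, map_sub, Submodule.coe_smul] at hk'
    rw [← hk']
    simp only [map_add, hE1 v₁ hv₁]
    have e : v₀ + v₁ + (ρ b v₀ + v₁) + (ρ b (ρ b v₀) + v₁) =
        ρ b (ρ b v₀) - ρ b v₀ - (ρ b v₀ - v₀) + (ρ b v₀ + ρ b v₀ + ρ b v₀) + (v₁ + v₁ + v₁) := by
      abel
    rw [e, h3, h3, add_zero, add_zero]
  · obtain ⟨v₀, hv₀, v₁, hv₁, rfl⟩ := hdec v
    obtain ⟨k₁, k₂, hk⟩ := ha ⟨n₀ ⟨v₀, hv₀⟩, ⟨_, rfl⟩⟩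
    refine ⟨k₁, k₂, ?_⟩
    have hk' := congrArg (fun z : ↥(LinearMap.range n₀) => ((z : ↥E₀) : E)) hk
    simp only [hn₀, Submodule.coe_add, Submodule.coe_smul] at hk'
    rw [← hk']
    simp only [map_add, hE1 v₁ hv₁]
    abel

end slevel

end Cfsg.Agent.Helper57.N15
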