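import Cfsg.Prelude.Def_Transfer
import Cfsg.Prelude.Def_Solvable
import Cfsg.Agent.Helper63.N15Defs

/-! # CALL S4415 part B (helper63), piece P5b -/

set_option autoImplicit false

namespace Cfsg.Agent.Helper57.N15

open Cfsg.Agent.Helper63.N15

section slevel

variable {S : Type*} [Group S] [Finite S] {E : Type*} [AddCommGroup E] [Module (ZMod 3) E]
  [Finite E]

/-- P5b. -/
theorem p5b (R : Subgroup S) (h : IsV4 R) :
    Cfsg.IsElementaryAbelian 2 R ∧ Nat.card ↥R = 4 :=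
  ⟨⟨⟨⟨fun a b => Subtype.ext (h.1 a a.2 b b.2)⟩⟩, h.2.1⟩, h.2.2⟩

end slevel

end Cfsg.Agent.Helper57.N15
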