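import Mathlib

/-!
# Subgroups of a finite symmetric group given by a table (seat helper57)

`g : Fin k → Equiv.Perm α` are generators, `f : Fin n → α → α` a table of maps containing the identity
and closed under composition with the generators on the right (`nxt`).  Then every element of the
subgroup generated by the `g j` is one of the `f i` (`pl_closure_subset_table`); if every entry is
reached from the identity (`par`, `lt`), every `f i` is an element of the subgroup
(`pl_table_subset_closure`); if moreover the entries are distinct, the subgroup has `n` elements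
(`pl_card_closure`).
-/

set_option autoImplicit false

namespace Cfsg.Agent.Helper57

section
variable {α : Type*} [Fintype α] [DecidableEq α] {n k : ℕ}

omit [DecidableEq α] in
theorem pl_closure_subset_table (g : Fin k → Equiv.Perm α) (f : Fin n → α → α) (i0 : Fin n)
    (h1 : ∀ x, f i0 x = x) (nxt : Fin n → Fin k → Fin n)
    (hnxt : ∀ i j x, f i (g j x) = f (nxt i j) x) :
    ∀ σ ∈ Subgroup.closure (Set.range g), ∃ i, ∀ x, σ x = f i x := by
  intro σ hσ
  have key : ∀ τ : Equiv.Perm α, (∃ i, ∀ x, τ x = f i x) → ∃ i, ∀ x, (τ * σ) x = f i x := by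
    induction hσ using Subgroup.closure_induction with
    | mem y hy =>
      obtain ⟨j, rfl⟩ := hy
      rintro τ ⟨i, hi⟩
      exact ⟨nxt i j, fun x => by rw [Equiv.Perm.mul_apply, hi, hnxt]⟩
    | one =>
      intro τ h
      simpa using h
    | mul y z _ _ hy hz =>
      intro τ h
      rw [← mul_assoc]
      exact hz _ (hy τ h)
    | inv y _ hy =>
      intro τ h
      have hpow : ∀ m : ℕ, ∃ i, ∀ x, (τ * y ^ m) x = f i x := by
        intro m
        induction m with
        | zero => simpa using h
        | succ m ih =>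
          rw [pow_succ, ← mul_assoc]
          exact hy _ ih
      have hinv : y⁻¹ = y ^ (orderOf y - 1) := by
        apply inv_eq_of_mul_eq_one_right
        rw [← pow_succ', Nat.sub_add_cancel (orderOf_pos y), pow_orderOf_eq_one]
      rw [hinv]
      exact hpow _
  have := key 1 ⟨i0, fun x => by simp [h1]⟩
  simpa using this

omit [Fintype α] [DecidableEq α] in
theorem pl_table_subset_closure (g : Fin k → Equiv.Perm α) (f : Fin n → α → α) (i0 : Fin n)
    (h1 : ∀ x, f i0 x = x) (nxt : Fin n → Fin k → Fin n)
    (hnxt : ∀ i j x, f i (g j x) = f (nxt i j) x) (par : Fin n → Fin n) (lt : Fin n → Fin k)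
    (hpar : ∀ i, i ≠ i0 → (par i).val < i.val ∧ nxt (par i) (lt i) = i) :
    ∀ i, ∃ σ ∈ Subgroup.closure (Set.range g), ∀ x, σ x = f i x := by
  have key : ∀ m : ℕ, ∀ i : Fin n, i.val = m →
      ∃ σ ∈ Subgroup.closure (Set.range g), ∀ x, σ x = f i x := by
    intro m
    induction m using Nat.strong_induction_on with
    | _ m ih =>
      intro i hi
      by_cases h0 : i = i0
      · subst h0
        exact ⟨1, Subgroup.one_mem _, fun x => by simp [h1]⟩
      · obtain ⟨hlt, hn⟩ := hpar i h0
        obtain ⟨σ, hσ, hσf⟩ := ih (par i).val (hi ▸ hlt) (par i) rfl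
        refine ⟨σ * g (lt i), Subgroup.mul_mem _ hσ (Subgroup.subset_closure ⟨_, rfl⟩), fun x => ?_⟩
        rw [Equiv.Perm.mul_apply, hσf, hnxt, hn]
  exact fun i => key i.val i rfl

omit [DecidableEq α] in
theorem pl_card_closure (g : Fin k → Equiv.Perm α) (f : Fin n → α → α) (i0 : Fin n)
    (h1 : ∀ x, f i0 x = x) (nxt : Fin n → Fin k → Fin n)
    (hnxt : ∀ i j x, f i (g j x) = f (nxt i j) x) (par : Fin n → Fin n) (lt : Fin n → Fin k)
    (hpar : ∀ i, i ≠ i0 → (par i).val < i.val ∧ nxt (par i) (lt i) = i)
    (hinj : ∀ i i', (∀ x, f i x = f i' x) → i = i') :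
    Nat.card (Subgroup.closure (Set.range g)) = n := by
  classical
  have h1' := pl_closure_subset_table g f i0 h1 nxt hnxt
  have h2' := pl_table_subset_closure g f i0 h1 nxt hnxt par lt hpar
  choose Φ hΦ using fun σ : Subgroup.closure (Set.range g) => h1' σ.1 σ.2
  have hbij : Function.Bijective Φ := by
    constructor
    · intro σ τ h
      apply Subtype.ext
      apply Equiv.ext
      intro x
      rw [hΦ σ x, hΦ τ x, h]
    · intro i
      obtain ⟨σ, hσ, hσf⟩ := h2' i
      refine ⟨⟨σ, hσ⟩, hinj _ _ fun x => ?_⟩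
      rw [← hΦ ⟨σ, hσ⟩ x, hσf]
  rw [Nat.card_congr (Equiv.ofBijective Φ hbij), Nat.card_eq_fintype_card, Fintype.card_fin]

end

/-- An injective image of a group of order `2 ^ k` in a finite group whose order is not divisible by
`2 ^ (k + 1)` is isomorphic to every Sylow 2-subgroup. -/
theorem pl_sylow_two_equiv {G X : Type*} [Group G] [Finite G] [Group X] (f : X →* G)
    (hf : Function.Injective f) (k : ℕ) (hX : Nat.card X = 2 ^ k)
    (hG : ¬ 2 ^ (k + 1) ∣ Nat.card G) (P : Sylow 2 G) : Nonempty (X ≃* ↥(P : Subgroup G)) := by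
  have : Fact (Nat.Prime 2) := ⟨Nat.prime_two⟩
  have hcard : Nat.card f.range = 2 ^ k := by
    rw [← hX]
    exact (Nat.card_congr (MonoidHom.ofInjective hf).toEquiv).symm
  have hp : IsPGroup 2 f.range := IsPGroup.of_card hcard
  obtain ⟨P1, hP1⟩ := hp.exists_le_sylow
  have hdvd : 2 ^ k ∣ Nat.card G := by
    rw [← hcard]
    exact Subgroup.card_subgroup_dvd_card _
  have hG0 : Nat.card G ≠ 0 := Nat.card_pos.ne'
  have hfac : (Nat.card G).factorization 2 = k := by
    apply le_antisymm
    · by_contra hlt
      rw [not_le] at hlt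
      exact hG ((Nat.Prime.pow_dvd_iff_le_factorization Nat.prime_two hG0).2 hlt)
    · exact (Nat.Prime.pow_dvd_iff_le_factorization Nat.prime_two hG0).1 hdvd
  have hP1card : Nat.card (P1 : Subgroup G) = 2 ^ k := by
    rw [Sylow.card_eq_multiplicity, hfac]
  have heq : f.range = (P1 : Subgroup G) :=
    Subgroup.eq_of_le_of_card_ge hP1 (by rw [hcard, hP1card])
  exact ⟨(MonoidHom.ofInjective hf).trans ((MulEquiv.subgroupCongr heq).trans (Sylow.equiv P1 P))⟩

end Cfsg.Agent.Helper57
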