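import Mathlib

set_option autoImplicit false

namespace Cfsg.Agent.Helper57

/-- PROD3: spectrum of `G × G × Y` versus `G × G × G`. -/
theorem orders_prod_three {G Y : Type*} [Group G] [Group Y] (a b A B : ℕ)
    (hG : ∀ d : ℕ, (∃ g : G, orderOf g = d) ↔
      (d ∣ 6 ∨ d ∣ 9 ∨ d ∣ a ∨ d ∣ b ∨ d ∣ A ∨ d ∣ B))
    (hY : ∀ d : ℕ, (∃ y : Y, orderOf y = d) ↔ (d ∣ 6 ∨ d ∣ 9 ∨ d ∣ a ∨ d ∣ b)) :
    Set.range (orderOf : G × G × Y → ℕ) = Set.range (orderOf : G × G × G → ℕ) := by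
  have key : ∀ (g1 g2 : G) (y : Y), orderOf ((g1, g2, y) : G × G × Y) =
      Nat.lcm (orderOf g1) (Nat.lcm (orderOf g2) (orderOf y)) := by
    intro g1 g2 y
    rw [Prod.orderOf, Prod.orderOf]
  have key' : ∀ (g1 g2 g3 : G), orderOf ((g1, g2, g3) : G × G × G) =
      Nat.lcm (orderOf g1) (Nat.lcm (orderOf g2) (orderOf g3)) := by
    intro g1 g2 g3
    rw [Prod.orderOf, Prod.orderOf]
  -- a "small" order is realised in `Y`
  have small : ∀ g : G, (orderOf g ∣ 6 ∨ orderOf g ∣ 9 ∨ orderOf g ∣ a ∨ orderOf g ∣ b) →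
      ∃ y : Y, orderOf y = orderOf g := fun g h => (hY _).mpr h
  have big : ∀ g : G, ¬ (orderOf g ∣ 6 ∨ orderOf g ∣ 9 ∨ orderOf g ∣ a ∨ orderOf g ∣ b) →
      (orderOf g ∣ A ∨ orderOf g ∣ B) := by
    intro g h
    have := (hG (orderOf g)).mp ⟨g, rfl⟩
    tauto
  -- two "big" orders dividing the same number merge
  have merge : ∀ (g h : G) (X : ℕ), (X = A ∨ X = B) → orderOf g ∣ X → orderOf h ∣ X →
      ∃ g' : G, orderOf g' = Nat.lcm (orderOf g) (orderOf h) := by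
    intro g h X hX h1 h2
    have hd : Nat.lcm (orderOf g) (orderOf h) ∣ X := Nat.lcm_dvd h1 h2
    apply (hG _).mpr
    rcases hX with rfl | rfl
    · exact Or.inr (Or.inr (Or.inr (Or.inr (Or.inl hd))))
    · exact Or.inr (Or.inr (Or.inr (Or.inr (Or.inr hd))))
  ext d
  simp only [Set.mem_range]
  constructor
  · rintro ⟨⟨g1, g2, y⟩, rfl⟩
    have hy : ∃ g3 : G, orderOf g3 = orderOf y := by
      apply (hG _).mpr
      have := (hY (orderOf y)).mp ⟨y, rfl⟩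
      tauto
    obtain ⟨g3, hg3⟩ := hy
    exact ⟨(g1, g2, g3), by rw [key, key', hg3]⟩
  · rintro ⟨⟨g1, g2, g3⟩, rfl⟩
    rw [key']
    by_cases h3 : (orderOf g3 ∣ 6 ∨ orderOf g3 ∣ 9 ∨ orderOf g3 ∣ a ∨ orderOf g3 ∣ b)
    · obtain ⟨y, hy⟩ := small g3 h3
      exact ⟨(g1, g2, y), by rw [key, hy]⟩
    by_cases h2 : (orderOf g2 ∣ 6 ∨ orderOf g2 ∣ 9 ∨ orderOf g2 ∣ a ∨ orderOf g2 ∣ b)
    · obtain ⟨y, hy⟩ := small g2 h2
      exact ⟨(g1, g3, y), by rw [key, hy, Nat.lcm_comm (orderOf g3) (orderOf g2)]⟩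
    by_cases h1 : (orderOf g1 ∣ 6 ∨ orderOf g1 ∣ 9 ∨ orderOf g1 ∣ a ∨ orderOf g1 ∣ b)
    · obtain ⟨y, hy⟩ := small g1 h1
      refine ⟨(g2, g3, y), ?_⟩
      rw [key, hy, Nat.lcm_comm (orderOf g1), Nat.lcm_assoc]
    have b1 := big g1 h1
    have b2 := big g2 h2
    have b3 := big g3 h3
    have one : orderOf (1 : Y) = 1 := orderOf_one
    -- pigeonhole
    have pg : (∃ X, (X = A ∨ X = B) ∧ orderOf g1 ∣ X ∧ orderOf g2 ∣ X) ∨
        (∃ X, (X = A ∨ X = B) ∧ orderOf g1 ∣ X ∧ orderOf g3 ∣ X) ∨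
        (∃ X, (X = A ∨ X = B) ∧ orderOf g2 ∣ X ∧ orderOf g3 ∣ X) := by
      rcases b1 with b1 | b1 <;> rcases b2 with b2 | b2 <;> rcases b3 with b3 | b3
      · exact Or.inl ⟨A, Or.inl rfl, b1, b2⟩
      · exact Or.inl ⟨A, Or.inl rfl, b1, b2⟩
      · exact Or.inr (Or.inl ⟨A, Or.inl rfl, b1, b3⟩)
      · exact Or.inr (Or.inr ⟨B, Or.inr rfl, b2, b3⟩)
      · exact Or.inr (Or.inr ⟨A, Or.inl rfl, b2, b3⟩)
      · exact Or.inr (Or.inl ⟨B, Or.inr rfl, b1, b3⟩)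
      · exact Or.inl ⟨B, Or.inr rfl, b1, b2⟩
      · exact Or.inl ⟨B, Or.inr rfl, b1, b2⟩
    rcases pg with ⟨X, hX, d1, d2⟩ | ⟨X, hX, d1, d3⟩ | ⟨X, hX, d2, d3⟩
    · obtain ⟨g', hg'⟩ := merge g1 g2 X hX d1 d2
      refine ⟨(g', g3, 1), ?_⟩
      rw [key, hg', one, Nat.lcm_one_right, Nat.lcm_assoc]
    · obtain ⟨g', hg'⟩ := merge g1 g3 X hX d1 d3
      refine ⟨(g', g2, 1), ?_⟩
      rw [key, hg', one, Nat.lcm_one_right, Nat.lcm_assoc, Nat.lcm_comm (orderOf g3)]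
    · obtain ⟨g', hg'⟩ := merge g2 g3 X hX d2 d3
      refine ⟨(g', g1, 1), ?_⟩
      rw [key, hg', one, Nat.lcm_one_right, Nat.lcm_comm]

end Cfsg.Agent.Helper57
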